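import Mathlib
import Cfsg.Prelude.Def_Solvable
import Cfsg.Agent.Lib.Cores
set_option linter.all false

/-!
# Baer's theorem: left Engel elements of a finite group

`mem_fitting_of_leftEngel`: a left Engel element of a finite group lies in the Fitting subgroup.
-/

set_option autoImplicit false

namespace Cfsg.Agent.H483.Engel

open Subgroup Cfsg

universe u

/-- The iterated commutator `[x, g, …, g]` (`n` entries `g`). -/
def eng {G : Type u} [Group G] (g x : G) : ℕ → G
  | 0 => x
  | n + 1 => eng g x n * g * (eng g x n)⁻¹ * g⁻¹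

theorem foldl_replicate {G : Type u} [Group G] (g x : G) (n : ℕ) :
    (List.replicate n g).foldl (fun a b => a * b * a⁻¹ * b⁻¹) x = eng g x n := by
  induction n with
  | zero => rfl
  | succ n ih =>
    rw [List.replicate_succ', List.foldl_append, ih]
    rfl

/-- `g` is a left Engel element. -/
def LeftEngel {G : Type u} [Group G] (g : G) : Prop := ∀ x : G, ∃ n : ℕ, eng g x n = 1

theorem eng_map {G H : Type*} [Group G] [Group H] (f : G →* H) (g x : G) (n : ℕ) :
    f (eng g x n) = eng (f g) (f x) n := by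
  induction n with
  | zero => rfl
  | succ n ih => simp only [eng, map_mul, map_inv, ih]

theorem LeftEngel.conj {G : Type u} [Group G] {g : G} (h : LeftEngel g) (y : G) :
    LeftEngel (y * g * y⁻¹) := by
  intro x
  obtain ⟨n, hn⟩ := h (y⁻¹ * x * y)
  refine ⟨n, ?_⟩
  have h1 := eng_map (MulAut.conj y).toMonoidHom g (y⁻¹ * x * y) n
  rw [hn, map_one] at h1
  have h2 : (MulAut.conj y).toMonoidHom g = y * g * y⁻¹ := rfl
  have h3 : (MulAut.conj y).toMonoidHom (y⁻¹ * x * y) = x := by
    change y * (y⁻¹ * x * y) * y⁻¹ = x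
    group
  rw [h2, h3] at h1
  exact h1.symm

theorem LeftEngel.subgroup {G : Type u} [Group G] {H : Subgroup G} {g : G} (hg : g ∈ H)
    (h : LeftEngel g) : LeftEngel (⟨g, hg⟩ : H) := by
  intro x
  obtain ⟨n, hn⟩ := h x
  refine ⟨n, ?_⟩
  apply H.subtype_injective
  rw [eng_map, map_one]
  exact hn

section main

variable {G : Type u} [Group G]

/-- elements of `K` normalizing -/
theorem mem_normalizer_closure {K : Set G} (hK : ∀ k ∈ K, ∀ x : G, x * k * x⁻¹ ∈ K)
    {X : Subgroup G} {x : G} (hx : x ∈ normalizer (X : Set G)) :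
    x ∈ normalizer ((closure (K ∩ X) : Subgroup G) : Set G) := by
  have key : ∀ y ∈ normalizer (X : Set G), ∀ h ∈ closure (K ∩ X), y * h * y⁻¹ ∈ closure (K ∩ X) := by
    intro y hy h hh
    induction hh using Subgroup.closure_induction with
    | mem z hz =>
      refine subset_closure ⟨hK z hz.1 y, ?_⟩
      exact (mem_normalizer_iff.1 hy z).1 hz.2
    | one => simp
    | mul a b _ _ ha hb =>
      have : y * (a * b) * y⁻¹ = (y * a * y⁻¹) * (y * b * y⁻¹) := by group
      rw [this]; exact mul_mem ha hb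
    | inv a _ ha =>
      have : y * a⁻¹ * y⁻¹ = (y * a * y⁻¹)⁻¹ := by group
      rw [this]; exact inv_mem ha
  rw [mem_normalizer_iff]
  intro h
  refine ⟨fun hh => key x hx h hh, fun hh => ?_⟩
  have h1 := key x⁻¹ (inv_mem hx) _ hh
  have h2 : x⁻¹ * (x * h * x⁻¹) * x⁻¹⁻¹ = h := by group
  rwa [h2] at h1

/-- The growth step: if `E` is nilpotent, `K` a normal subset, `X₀ = ⟨K ∩ X₀⟩ ≤ E` and some element of `K ∩ E` is not
in `X₀`, then some such element normalizes `X₀`. -/
theorem exists_mem_normalizer [Finite G] {K : Set G} (hK : ∀ k ∈ K, ∀ x : G, x * k * x⁻¹ ∈ K)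
    {X₀ E : Subgroup G} (hX₀ : closure (K ∩ X₀) = X₀) (hle : X₀ ≤ E) (hE : Group.IsNilpotent E)
    (hne : ∃ k ∈ K, k ∈ E ∧ k ∉ X₀) :
    ∃ k ∈ K, k ∈ E ∧ k ∉ X₀ ∧ k ∈ normalizer (X₀ : Set G) := by
  classical
  -- a maximal `X` between
  obtain ⟨X, hX⟩ := Finite.exists_le_maximal (p := fun X : Subgroup G => X₀ ≤ X ∧ X ≤ E ∧ K ∩ X ⊆ X₀)
    (a := X₀) ⟨le_rfl, hle, Set.inter_subset_right⟩
  obtain ⟨h1, h2, h3⟩ := hX.2.prop
  have hKX : closure (K ∩ X) = X₀ := by
    apply le_antisymm
    · exact (closure_le _).2 h3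
    · conv_lhs => rw [← hX₀]
      exact closure_mono (Set.inter_subset_inter_right _ h1)
  have hXE : X ≠ E := by
    rintro rfl
    obtain ⟨k, hk, hk1, hk2⟩ := hne
    exact hk2 (h3 ⟨hk, hk1⟩)
  -- normalizer condition in `E`
  have hlt : X.subgroupOf E < ⊤ := by
    rw [lt_top_iff_ne_top, Ne, subgroupOf_eq_top]
    intro h
    exact hXE (le_antisymm h2 h)
  have hn := Group.normalizerCondition_of_isNilpotent (G := E) _ hlt
  obtain ⟨y, hy1, hy2⟩ := SetLike.exists_of_lt hn
  set Y : Subgroup G := normalizer (X : Set G) ⊓ E with hY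
  have hXY : X ≤ Y := le_inf le_normalizer h2
  have hyY : (y : G) ∈ Y := by
    refine mem_inf.2 ⟨?_, y.2⟩
    rw [mem_normalizer_iff]
    rw [mem_normalizer_iff] at hy1
    intro h
    constructor
    · intro hh
      have := (hy1 ⟨h, h2 hh⟩).1 (by rw [mem_subgroupOf]; exact hh)
      rw [mem_subgroupOf] at this
      exact this
    · intro hh
      have hhE : h ∈ E := by
        have h5 : (y : G)⁻¹ * ((y : G) * h * (y : G)⁻¹) * (y : G) = h := by group
        rw [← h5]
        exact mul_mem (mul_mem (inv_mem y.2) (h2 hh)) y.2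
      have := (hy1 ⟨h, hhE⟩).2 (by rw [mem_subgroupOf]; exact hh)
      rw [mem_subgroupOf] at this
      exact this
  have hyX : (y : G) ∉ X := by
    intro h
    exact hy2 (by rw [mem_subgroupOf]; exact h)
  have hnot : ¬ (K ∩ Y ⊆ X₀) := by
    intro h
    have h6 := hX.2.le_of_ge (y := Y) ⟨h1.trans hXY, inf_le_right, h⟩ hXY
    exact hyX (h6 hyY)
  rw [Set.not_subset] at hnot
  obtain ⟨k, ⟨hk, hkY⟩, hkX⟩ := hnot
  refine ⟨k, hk, (mem_inf.1 hkY).2, hkX, ?_⟩
  have := mem_normalizer_closure hK (mem_inf.1 hkY).1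
  rwa [hKX] at this

end main

open Cfsg.Agent.Lib.Cores in
theorem mem_fitting_aux : ∀ (n : ℕ) (G : Type u) [Group G] [Finite G], Nat.card G = n → ∀ g : G,
    LeftEngel g → g ∈ fittingSubgroup G := by
  intro n
  induction n using Nat.strong_induction_on with
  | _ n ih =>
  intro G _ _ hn g hg
  by_contra hgF
  -- the conjugacy class of `g`
  set K : Set G := {k | ∃ x : G, x * g * x⁻¹ = k} with hKdef
  have hgK : g ∈ K := ⟨1, by simp⟩
  have hK : ∀ k ∈ K, ∀ x : G, x * k * x⁻¹ ∈ K := by
    rintro _ ⟨y, rfl⟩ x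
    exact ⟨x * y, by group⟩
  have hKE : ∀ k ∈ K, LeftEngel k := by
    rintro _ ⟨y, rfl⟩
    exact hg.conj y
  have hnil : ∀ H : Subgroup G, H ≠ ⊤ → Group.IsNilpotent (closure (K ∩ H) : Subgroup G) := by
    intro H hH
    have hcard : Nat.card H < n := by
      rw [← hn]
      exact lt_of_le_of_ne (Subgroup.card_le_card_group H) (fun h => hH (Subgroup.eq_top_of_card_eq H h))
    have h1 : closure (K ∩ H) ≤ (fittingSubgroup H).map H.subtype := by
      rw [closure_le]
      rintro k ⟨hk, hkH⟩
      exact ⟨⟨k, hkH⟩, ih _ hcard H rfl ⟨k, hkH⟩ ((hKE k hk).subgroup hkH), rfl⟩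
    have h2 : Group.IsNilpotent ((fittingSubgroup H).map H.subtype : Subgroup G) :=
      (isNilpotent_map_equiv H.subtype_injective _).2 fittingSubgroup_isNilpotent
    exact Group.isNilpotent_congr (subgroupOfEquivOfLe h1) |>.mp inferInstance
  have hnorm : ∀ D : Subgroup G, Group.IsNilpotent D → (∃ k ∈ K, k ∈ D) →
      normalizer (D : Set G) ≠ ⊤ := by
    rintro D hD ⟨_, ⟨x, rfl⟩, hx⟩ htop
    have hDn : D.Normal := normalizer_eq_top_iff.1 htop
    apply hgF
    apply le_fittingSubgroup hDn hD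
    have := hDn.conj_mem _ hx x⁻¹
    have h3 : x⁻¹ * (x * g * x⁻¹) * x⁻¹⁻¹ = g := by group
    rwa [h3] at this
  have hKtop : closure K = ⊤ := by
    by_contra h
    have h1 := hnil (closure K) h
    have h2 : K ∩ (closure K : Subgroup G) = K := Set.inter_eq_left.2 subset_closure
    rw [h2] at h1
    refine hnorm _ h1 ⟨g, hgK, subset_closure hgK⟩ ?_
    rw [eq_top_iff]
    intro x _
    have h3 : x ∈ normalizer ((⊤ : Subgroup G) : Set G) := by
      rw [mem_normalizer_iff]; simp
    have h4 := mem_normalizer_closure hK h3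
    rwa [coe_top, Set.inter_univ] at h4
  -- distinct maximal subgroups share no element of `K`
  have hdisj : ∀ M N : Subgroup G, IsCoatom M → IsCoatom N → M ≠ N → ∀ k ∈ K, k ∈ M → k ∉ N := by
    by_contra hcon
    push Not at hcon
    obtain ⟨M, N, hM, hN, hMN, k, hk, hkM, hkN⟩ := hcon
    obtain ⟨S, hS⟩ := Finite.exists_le_maximal (p := fun S : Set G => ∃ M N : Subgroup G,
      IsCoatom M ∧ IsCoatom N ∧ M ≠ N ∧ (∃ k ∈ K, k ∈ M ∧ k ∈ N) ∧
      S = K ∩ (M ⊓ N : Subgroup G)) (a := K ∩ (M ⊓ N : Subgroup G))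
      ⟨M, N, hM, hN, hMN, ⟨k, hk, hkM, hkN⟩, rfl⟩
    clear hM hN hMN hk hkM hkN
    obtain ⟨M, N, hM, hN, hMN, ⟨k, hk, hkM, hkN⟩, hSe⟩ := hS.2.prop
    have hMNtop : M ⊓ N ≠ ⊤ := fun h => hM.1 (top_le_iff.1 (h ▸ inf_le_left))
    set D : Subgroup G := closure (K ∩ (M ⊓ N : Subgroup G)) with hD
    have hDle : D ≤ M ⊓ N := (closure_le _).2 Set.inter_subset_right
    have hKD : K ∩ (D : Set G) = K ∩ (M ⊓ N : Subgroup G) := by
      apply Set.Subset.antisymm
      · exact Set.inter_subset_inter_right _ hDle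
      · exact fun z hz => ⟨hz.1, subset_closure hz⟩
    have hDD : closure (K ∩ (D : Set G)) = D := by rw [hKD]
    have hkD : k ∈ D := subset_closure ⟨hk, mem_inf.2 ⟨hkM, hkN⟩⟩
    have hDnil : Group.IsNilpotent D := hnil _ hMNtop
    obtain ⟨L, hL, hNL⟩ := (eq_top_or_exists_le_coatom (normalizer (D : Set G))).resolve_left
      (hnorm D hDnil ⟨k, hk, hkD⟩)
    have hDL : D ≤ L := le_normalizer.trans hNL
    have key : ∀ M' : Subgroup G, IsCoatom M' → D ≤ M' → L = M' := by
      intro M' hM' hDM'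
      by_contra hne
      have hle : S ⊆ K ∩ (L ⊓ M' : Subgroup G) := by
        rw [hSe, ← hKD]
        exact Set.inter_subset_inter_right _ (le_inf hDL hDM')
      have hle2 := hS.2.le_of_ge (y := K ∩ (L ⊓ M' : Subgroup G))
        ⟨L, M', hL, hM', hne, ⟨k, hk, hDL hkD, hDM' hkD⟩, rfl⟩ hle
      by_cases hsub : K ∩ (M' : Set G) ⊆ D
      · have h1 : closure (K ∩ (M' : Set G)) = D := by
          apply le_antisymm
          · exact (closure_le _).2 hsub
          · conv_lhs => rw [← hDD]
            exact closure_mono (Set.inter_subset_inter_right _ hDM')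
        have h2 : M' ≤ normalizer (D : Set G) := by
          intro x hx
          have := mem_normalizer_closure hK (le_normalizer hx : x ∈ normalizer (M' : Set G))
          rwa [h1] at this
        rcases hM'.le_iff.1 (h2.trans hNL) with h3 | h3
        · exact hL.1 h3
        · exact hne h3
      · rw [Set.not_subset] at hsub
        obtain ⟨k1, ⟨hk1, hk1M⟩, hk1D⟩ := hsub
        have hEnil := hnil M' hM'.1
        have hDE : D ≤ closure (K ∩ (M' : Set G)) := by
          conv_lhs => rw [← hDD]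
          exact closure_mono (Set.inter_subset_inter_right _ hDM')
        obtain ⟨k2, hk2, hk2E, hk2D, hk2N⟩ := exists_mem_normalizer hK hDD hDE hEnil
          ⟨k1, hk1, subset_closure ⟨hk1, hk1M⟩, hk1D⟩
        have hk2M : k2 ∈ M' := ((closure_le _).2 Set.inter_subset_right : closure (K ∩ (M' : Set G)) ≤ M') hk2E
        have h4 := hle2 ⟨hk2, mem_inf.2 ⟨hNL hk2N, hk2M⟩⟩
        rw [hSe, ← hKD] at h4
        exact hk2D h4.2
    exact hMN ((key M hM (hDle.trans inf_le_left)).symm.trans (key N hN (hDle.trans inf_le_right)))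
  -- a maximal subgroup containing `g`
  have hgtop : closure ({g} : Set G) ≠ ⊤ := by
    intro h
    have hcomm : ∀ a b : G, a * b = b * a := by
      intro a b
      have ha : a ∈ closure ({g} : Set G) := h ▸ mem_top a
      have hb : b ∈ closure ({g} : Set G) := h ▸ mem_top b
      rw [mem_closure_singleton] at ha hb
      obtain ⟨i, rfl⟩ := ha
      obtain ⟨j, rfl⟩ := hb
      rw [← zpow_add, ← zpow_add, add_comm]
    have hGnil : Group.IsNilpotent G := by
      let _ : CommGroup G := { (inferInstance : Group G) with mul_comm := hcomm }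
      exact CommGroup.isNilpotent
    apply hgF
    rw [fittingSubgroup_eq_top_iff.2 hGnil]
    exact mem_top g
  obtain ⟨M, hM, hgM⟩ := (eq_top_or_exists_le_coatom _).resolve_left hgtop
  have hgM : g ∈ M := hgM (subset_closure rfl)
  have hMn : normalizer (M : Set G) = M := by
    rcases hM.le_iff.1 (le_normalizer : M ≤ normalizer (M : Set G)) with h | h
    · exfalso
      have hMn : M.Normal := normalizer_eq_top_iff.1 h
      apply hM.1
      rw [← top_le_iff, ← hKtop, closure_le]
      rintro _ ⟨x, rfl⟩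
      exact hMn.conj_mem _ hgM x
    · exact h
  obtain ⟨x, hx⟩ : ∃ x, x ∉ M := by
    by_contra h
    push Not at h
    exact hM.1 (eq_top_iff.2 fun y _ => h y)
  obtain ⟨m, hm⟩ := hg x
  -- first step where the sequence enters `M`
  have hstep : ∃ i, eng g x i ∉ M ∧ eng g x (i + 1) ∈ M := by
    by_contra hcon
    push Not at hcon
    have : ∀ i, eng g x i ∉ M := by
      intro i
      induction i with
      | zero => exact hx
      | succ i ihi => exact hcon i ihi
    apply this m
    rw [hm]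
    exact one_mem M
  obtain ⟨i, hi, hi1⟩ := hstep
  set y := eng g x i with hy
  have hyM : y * g * y⁻¹ ∈ M := by
    have : y * g * y⁻¹ = (y * g * y⁻¹ * g⁻¹) * g := by group
    rw [this]
    exact mul_mem hi1 hgM
  -- the conjugate of `M` by `y`
  have hco : IsCoatom (M.map (MulAut.conj y).toMonoidHom) := by
    exact ((MulEquiv.mapSubgroup (MulAut.conj y)).isCoatom_iff M).2 hM
  have hyM2 : y * g * y⁻¹ ∈ M.map (MulAut.conj y).toMonoidHom := ⟨g, hgM, rfl⟩
  have heq : M.map (MulAut.conj y).toMonoidHom = M := by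
    by_contra hne
    exact hdisj _ _ hco hM hne _ (hK g hgK y) hyM2 hyM
  apply hi
  rw [← hMn, mem_normalizer_iff]
  intro h
  constructor
  · intro hh
    rw [← heq]
    exact ⟨h, hh, rfl⟩
  · intro hh
    rw [← heq] at hh
    obtain ⟨h', hh', hh''⟩ := hh
    have : h' = h := by
      have h5 : y * h' * y⁻¹ = y * h * y⁻¹ := hh''
      simpa using h5
    rwa [← this]

/-- **Baer**: a left Engel element of a finite group lies in the Fitting subgroup. -/
theorem mem_fitting_of_leftEngel {G : Type u} [Group G] [Finite G] {g : G} (hg : LeftEngel g) :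
    g ∈ fittingSubgroup G :=
  mem_fitting_aux _ G rfl g hg

/-- An element of a nilpotent normal subgroup is left Engel. -/
theorem leftEngel_of_mem_nilpotent_normal {G : Type u} [Group G] {N : Subgroup G} (hN : N.Normal)
    (hnil : Group.IsNilpotent N) {g : G} (hg : g ∈ N) : LeftEngel g := by
  intro x
  obtain ⟨n, hn⟩ := (Subgroup.isNilpotent_iff_lowerCentralSeries N).1 hnil
  have key : ∀ i, eng g x (i + 1) ∈ N.lowerCentralSeries i := by
    intro i
    induction i with
    | zero =>
      rw [Subgroup.lowerCentralSeries_zero]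
      exact mul_mem (hN.conj_mem g hg x) (inv_mem hg)
    | succ i ih =>
      rw [Subgroup.lowerCentralSeries_succ]
      exact Subgroup.commutator_mem_commutator ih hg
  refine ⟨n + 1, ?_⟩
  have := key n
  rw [hn, mem_bot] at this
  exact this

end Cfsg.Agent.H483.Engel
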