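import Mathlib
import Cfsg.Prelude.Def_CaseTheorems
import Cfsg.Agent.FastGrp
import Cfsg.Agent.Prune
set_option linter.all false
prune_inst 0x7f00000000000000000000000000000000000000000000000000000000000000000000000000000000000000000000000000000000000000000000000000000000000000000000000000000000000000003fffffffffffffffffffffffffffbeffbdffffffff
open scoped Cfsg.Agent.FastGrp

/-!
# The two-variable words `s₀ = x`, `s_{n+1} = [y⁻¹ s_n y, s_n⁻¹]`

Generalities: compatibility with homomorphisms, the vanishing on solvable groups, and the reduction of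
"law implies solvable" statements to minimal simple groups.
-/

set_option autoImplicit false

namespace Cfsg.Agent.H483.SeqLaw

universe u

variable {G : Type*} [Group G]

/-- One step of the recursion. -/
def stp (y s : G) : G := (y⁻¹ * s * y) * (s⁻¹) * (y⁻¹ * s * y)⁻¹ * (s⁻¹)⁻¹

/-- The word `s_n(x, y)`. -/
def sn (x y : G) (n : ℕ) : G := @Nat.rec (fun _ => G) x (fun _ s => stp y s) n

theorem sn_zero (x y : G) : sn x y 0 = x := rfl

theorem sn_succ (x y : G) (n : ℕ) : sn x y (n + 1) = stp y (sn x y n) := rfl

theorem stp_eq (y s : G) : stp y s = y⁻¹ * (s * y * s⁻¹) * y⁻¹ * (s⁻¹ * y * s) := by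
  unfold stp; group

theorem map_stp {H : Type*} [Group H] (f : G →* H) (y s : G) : f (stp y s) = stp (f y) (f s) := by
  simp only [stp, map_mul, map_inv]

theorem map_sn {H : Type*} [Group H] (f : G →* H) (x y : G) (n : ℕ) :
    f (sn x y n) = sn (f x) (f y) n := by
  induction n with
  | zero => rfl
  | succ n ih => rw [sn_succ, sn_succ, map_stp, ih]

/-- `s_n` is equivariant under the centralizer of `y`. -/
theorem stp_conj {y c : G} (hc : c * y = y * c) (s : G) :
    stp y (c * s * c⁻¹) = c * stp y s * c⁻¹ := by
  have h1 := map_stp (MulAut.conj c).toMonoidHom y s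
  have h2 : (MulAut.conj c).toMonoidHom y = y := by
    change c * y * c⁻¹ = y
    rw [hc]; group
  rw [h2] at h1
  exact h1.symm

theorem sn_one_of_le {x y : G} {m n : ℕ} (h : sn x y m = 1) (hmn : m ≤ n) : sn x y n = 1 := by
  induction n, hmn using Nat.le_induction with
  | base => exact h
  | succ n _ ih => rw [sn_succ, ih]; simp [stp]

theorem sn_mem_derivedSeries (x y : G) (n : ℕ) : sn x y n ∈ derivedSeries G n := by
  induction n with
  | zero => exact Subgroup.mem_top _
  | succ n ih =>
    rw [derivedSeries_succ]
    have h1 : y⁻¹ * sn x y n * y ∈ derivedSeries G n := by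
      have := (derivedSeries_normal (G := G) n).conj_mem _ ih y⁻¹
      rwa [inv_inv] at this
    exact Subgroup.commutator_mem_commutator h1 (inv_mem ih)

/-- The law `s_n = 1` for some `n`. -/
def Law (G : Type*) [Group G] : Prop := ∃ n : ℕ, ∀ x y : G, sn x y n = 1

theorem law_of_isSolvable (h : Group.IsSolvable G) : Law G := by
  obtain ⟨n, hn⟩ := h.solvable
  refine ⟨n, fun x y => ?_⟩
  have := sn_mem_derivedSeries x y n
  rw [hn, Subgroup.mem_bot] at this
  exact this

theorem Law.of_injective {H : Type*} [Group H] (h : Law G) {f : H →* G} (hf : Function.Injective f) :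
    Law H := by
  obtain ⟨n, hn⟩ := h
  refine ⟨n, fun x y => hf ?_⟩
  rw [map_sn, hn, map_one]

theorem Law.of_surjective {H : Type*} [Group H] (h : Law G) {f : G →* H} (hf : Function.Surjective f) :
    Law H := by
  obtain ⟨n, hn⟩ := h
  refine ⟨n, fun x y => ?_⟩
  obtain ⟨x, rfl⟩ := hf x
  obtain ⟨y, rfl⟩ := hf y
  rw [← map_sn, hn, map_one]

/-- A pair on which the words never vanish contradicts the law. -/
theorem not_law_of {x y : G} (h : ∀ n, sn x y n ≠ 1) : ¬ Law G := by
  rintro ⟨n, hn⟩
  exact h n (hn x y)

/-- **Reduction to minimal simple groups.** A property of groups inherited by subgroups and quotients which fails for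
every finite minimal simple group forces solvability. -/
theorem solvable_of_property (P : ∀ (H : Type u) [Group H], Prop)
    (hsub : ∀ (H : Type u) [Group H] (K : Subgroup H), P H → P K)
    (hquot : ∀ (H : Type u) [Group H] (N : Subgroup H) [N.Normal], P H → P (H ⧸ N))
    (hmin : ∀ (H : Type u) [Group H] [Finite H], Cfsg.IsMinimalSimple H → ¬ P H) :
    ∀ (n : ℕ) (G : Type u) [Group G] [Finite G], Nat.card G = n → P G → Group.IsSolvable G := by
  intro n
  induction n using Nat.strong_induction_on with
  | _ n ih =>
  intro G _ _ hn hP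
  by_contra hns
  -- proper subgroups are solvable
  have hsubs : ∀ K : Subgroup G, K ≠ ⊤ → Group.IsSolvable K := by
    intro K hK
    refine ih _ ?_ K rfl (hsub G K hP)
    rw [← hn]
    exact lt_of_le_of_ne (Subgroup.card_le_card_group K)
      (fun h => hK (Subgroup.eq_top_of_card_eq K h))
  have hnt : Nontrivial G := by
    by_contra h
    rw [not_nontrivial_iff_subsingleton] at h
    exact hns inferInstance
  have hsimple : IsSimpleGroup G := by
    refine ⟨fun N hN => ?_⟩
    by_contra hcon
    push Not at hcon
    have h1 := hsubs N hcon.2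
    have h2 : Group.IsSolvable (G ⧸ N) := by
      refine ih _ ?_ (G ⧸ N) rfl (hquot G N hP)
      rw [← hn, Subgroup.card_eq_card_quotient_mul_card_subgroup N]
      have h3 : 1 < Nat.card N := by
        have : Nontrivial N := (Subgroup.nontrivial_iff_ne_bot N).2 hcon.1
        exact Finite.one_lt_card
      have h4 : 0 < Nat.card (G ⧸ N) := Nat.card_pos
      nlinarith
    exact hns (Group.isSolvable_of_ker_le_range N.subtype (QuotientGroup.mk' N)
      (by rw [QuotientGroup.ker_mk', Subgroup.range_subtype]))
  refine hmin G ⟨hsimple, ?_, hsubs⟩ hP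
  intro hc
  apply hns
  exact Group.isSolvable_of_comm fun a b => hc.is_comm.comm a b

end Cfsg.Agent.H483.SeqLaw

private theorem dce_3da173d19fe6 : _root_.True := by
  try have : _root_.True := by simp only [_root_.Cfsg.Agent.H483.SeqLaw.stp.eq_1]
  exact _root_.True.intro
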